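import Cfsg.Agent.GLDerived.Basic
import Cfsg.Agent.Perm.Modules
import Mathlib.FieldTheory.IsAlgClosed.AlgebraicClosure

/-!
# Derived length of linear `p`-groups over an arbitrary field

A `p`-group acting on a space of dimension less than `2 ^ m` over an algebraically closed field of
another characteristic has its `m`-th derived subgroup acting trivially; in characteristic `p` the
dimension `2 ^ m` itself is allowed.
-/

set_option autoImplicit false

namespace Cfsg.Agent.DerivedLen

open Module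
open scoped commutatorElement

universe u v w

variable {K : Type w} [Field K] {p : ℕ} [Fact p.Prime]

section restrict

variable {P : Type u} [Group P] {V : Type v} [AddCommGroup V] [Module K V]

/-- The action on an invariant subspace. -/
def resRep (ρ : P →* Module.End K V) (U : Submodule K V) (hU : ∀ g, ∀ v ∈ U, ρ g v ∈ U) :
    P →* Module.End K U where
  toFun g := (ρ g).restrict (hU g)
  map_one' := by ext; simp
  map_mul' g h := by ext; simp

/-- The action on the quotient by an invariant subspace. -/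
def quotRep (ρ : P →* Module.End K V) (U : Submodule K V) (hU : ∀ g, ∀ v ∈ U, ρ g v ∈ U) :
    P →* Module.End K (V ⧸ U) where
  toFun g := U.mapQ U (ρ g) (hU g)
  map_one' := by ext; simp
  map_mul' g h := by ext; simp

theorem resRep_apply (ρ : P →* Module.End K V) (U : Submodule K V)
    (hU : ∀ g, ∀ v ∈ U, ρ g v ∈ U) (g : P) (u : U) : (resRep ρ U hU g u : V) = ρ g u := rfl

theorem eq_of_quotRep {ρ : P →* Module.End K V} {U : Submodule K V}
    {hU : ∀ g, ∀ v ∈ U, ρ g v ∈ U} {g : P} (h : quotRep ρ U hU g = 1) (v : V) :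
    ρ g v - v ∈ U :=
  (Submodule.Quotient.eq U).1 (by
    have := LinearMap.congr_fun h (Submodule.Quotient.mk v)
    simpa [quotRep] using this)

end restrict

theorem exists_invariant {P : Type u} [Group P] [Finite P] (hP : IsPGroup p P) [CharP K p]
    {V : Type v} [AddCommGroup V] [Module K V] [FiniteDimensional K V]
    (ρ : P →* Module.End K V) :
    ∀ j : ℕ, j ≤ finrank K V →
      ∃ U : Submodule K V, (∀ g, ∀ v ∈ U, ρ g v ∈ U) ∧ finrank K U = j
  | 0, _ => ⟨⊥, fun g v hv => by rw [(Submodule.mem_bot K).1 hv, map_zero]; exact zero_mem _,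
      finrank_bot K V⟩
  | j + 1, hj => by
    obtain ⟨U, hU, hUd⟩ := exists_invariant hP ρ j (by omega)
    have hne : (⊤ : Submodule K (V ⧸ U)) ≠ ⊥ := fun h => by
      have h1 := Submodule.finrank_quotient_add_finrank U
      rw [← finrank_top K (V ⧸ U), h, finrank_bot] at h1
      omega
    obtain ⟨w, -, hw0, hw⟩ := PermLib.exists_fixed_vector hP (quotRep ρ U hU) ⊤
      (fun _ _ _ => Submodule.mem_top) hne
    obtain ⟨v, rfl⟩ := Submodule.Quotient.mk_surjective U w
    have hv : v ∉ U := fun h => hw0 ((Submodule.Quotient.mk_eq_zero U).2 h)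
    refine ⟨U ⊔ Submodule.span K {v}, fun g x hx => ?_, ?_⟩
    · obtain ⟨a, ha, b, hb, rfl⟩ := Submodule.mem_sup.1 hx
      obtain ⟨c, rfl⟩ := Submodule.mem_span_singleton.1 hb
      have h2 : ρ g v - v ∈ U := (Submodule.Quotient.eq U).1 (by simpa [quotRep] using hw g)
      rw [map_add, map_smul, show ρ g a + c • ρ g v = (ρ g a + c • (ρ g v - v)) + c • v by
        rw [smul_sub]; abel]
      exact Submodule.add_mem_sup (U.add_mem (hU g a ha) (U.smul_mem c h2))
        (Submodule.smul_mem _ c (Submodule.mem_span_singleton_self v))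
    · have h1 := Submodule.finrank_sup_add_finrank_inf_eq U (Submodule.span K {v})
      have h2 : U ⊓ Submodule.span K {v} = ⊥ := by
        rw [eq_bot_iff]
        rintro x ⟨hxU, hxv⟩
        obtain ⟨c, rfl⟩ := Submodule.mem_span_singleton.1 hxv
        rcases eq_or_ne c 0 with rfl | hc
        · simp
        · exact absurd ((U.smul_mem_iff hc).1 hxU) hv
      rw [h2, finrank_bot, hUd, finrank_span_singleton (fun h : v = 0 => hv (h.symm ▸ U.zero_mem))] at h1
      omega

/-- Characteristic `p`. -/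
theorem derived_trivial_unipotent [CharP K p] : ∀ (m : ℕ) {P : Type u} [Group P] [Finite P],
    IsPGroup p P → ∀ {V : Type v} [AddCommGroup V] [Module K V] [FiniteDimensional K V]
      (ρ : P →* Module.End K V), finrank K V ≤ 2 ^ m → ∀ x ∈ derivedSeries P m, ρ x = 1
  | 0, P, _, _, hP, V, _, _, _, ρ, hd, x, _ => by
    refine LinearMap.ext fun v => ?_
    by_cases hv : v = 0
    · rw [hv, map_zero, map_zero]
    have hsp : ∀ y : V, ∃ c : K, c • v = y :=
      (finrank_eq_one_iff_of_nonzero' v hv).1 (le_antisymm (by simpa using hd)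
        (Module.finrank_pos_iff.2 ⟨v, 0, hv⟩))
    obtain ⟨w, -, hw0, hw⟩ := PermLib.exists_fixed_vector hP ρ ⊤ (fun _ _ _ => Submodule.mem_top)
      (fun h => hv (by simpa [h] using (Submodule.mem_top : v ∈ (⊤ : Submodule K V))))
    obtain ⟨c, rfl⟩ := hsp w
    have hc : c ≠ 0 := fun h => hw0 (by rw [h, zero_smul])
    rw [Module.End.one_apply]
    exact smul_right_injective V hc (by simpa [map_smul] using hw x)
  | m + 1, P, _, _, hP, V, _, _, _, ρ, hd, x, hx => by
    obtain ⟨U, hU, hUd⟩ := exists_invariant hP ρ (min (2 ^ m) (finrank K V)) (min_le_right _ _)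
    have hq := Submodule.finrank_quotient_add_finrank U
    have h1 := derived_trivial_unipotent m hP (resRep ρ U hU) (by omega)
    have h2 := derived_trivial_unipotent m hP (quotRep ρ U hU) (by
      rw [pow_succ] at hd; omega)
    have htriv : ∀ a ∈ derivedSeries P m, ∀ b ∈ derivedSeries P m, ρ (a * b) = ρ (b * a) := by
      intro a ha b hb
      have hfix : ∀ y ∈ derivedSeries P m, ∀ u ∈ U, ρ y u = u := fun y hy u hu =>
        congrArg Subtype.val (LinearMap.congr_fun (h1 y hy) ⟨u, hu⟩)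
      refine LinearMap.ext fun v => ?_
      have ea := eq_of_quotRep (h2 a ha) v
      have eb := eq_of_quotRep (h2 b hb) v
      rw [map_mul, map_mul, Module.End.mul_apply, Module.End.mul_apply,
        show ρ b v = v + (ρ b v - v) by abel, map_add, hfix a ha _ eb,
        show ρ a v = v + (ρ a v - v) by abel, map_add, hfix b hb _ ea]
      abel
    have hle : derivedSeries P (m + 1) ≤ ρ.ker := by
      rw [derivedSeries_succ, Subgroup.commutator_le]
      intro a ha b hb
      rw [MonoidHom.mem_ker, commutatorElement_def, map_mul, map_mul, htriv a ha b hb,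
        ← map_mul, ← map_mul]
      simp
    exact hle hx

/-- Characteristic different from `p`. -/
theorem derived_trivial_coprime [IsAlgClosed K] (hchar : (p : K) ≠ 0) : ∀ (d m : ℕ) {P : Type u}
    [Group P] [Finite P], IsPGroup p P →
    ∀ {V : Type v} [AddCommGroup V] [Module K V] [FiniteDimensional K V]
      (ρ : P →* Module.End K V), finrank K V = d → d < 2 ^ m →
        ∀ x ∈ derivedSeries P m, ρ x = 1 := by
  classical
  intro d
  induction d using Nat.strong_induction_on with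
  | _ d ih =>
  intro m P _ _ hP V _ _ _ ρ hd hdm x hx
  rcases Nat.eq_zero_or_pos d with h0 | hpos
  · subst h0
    have := (Module.finrank_zero_iff (R := K) (M := V)).1 hd
    exact LinearMap.ext fun v => Subsingleton.elim _ _
  have : Nontrivial V := Module.finrank_pos_iff.1 (hd ▸ hpos)
  obtain ⟨m, rfl⟩ : ∃ k, m = k + 1 := ⟨m - 1, by rcases m with - | m <;> simp_all⟩
  -- reduce to a faithful action
  let π := QuotientGroup.mk' ρ.ker
  let ψ : P ⧸ ρ.ker →* Module.End K V := QuotientGroup.lift ρ.ker ρ fun _ h => h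
  have hψ : Function.Injective ψ := by
    intro a b hab
    obtain ⟨a, rfl⟩ := QuotientGroup.mk_surjective a
    obtain ⟨b, rfl⟩ := QuotientGroup.mk_surjective b
    refine QuotientGroup.eq.2 (MonoidHom.mem_ker.2 ?_)
    have hab' : ρ a = ρ b := hab
    rw [map_mul, ← hab', ← map_mul, inv_mul_cancel, map_one]
  have hQ : IsPGroup p (P ⧸ ρ.ker) := hP.to_quotient _
  suffices h : derivedSeries (P ⧸ ρ.ker) (m + 1) = ⊥ by
    have h1 := map_derivedSeries_le_derivedSeries π (m + 1) (Subgroup.mem_map_of_mem π hx)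
    rw [h, Subgroup.mem_bot] at h1
    exact MonoidHom.mem_ker.1 ((QuotientGroup.eq_one_iff x).1 h1)
  by_cases hred : ∃ U : Submodule K V, (∀ g, ∀ v ∈ U, ψ g v ∈ U) ∧ U ≠ ⊥ ∧ U ≠ ⊤
  · obtain ⟨U, hU, hU0, hU1⟩ := hred
    have hq := Submodule.finrank_quotient_add_finrank U
    have hlt := Submodule.finrank_lt hU1
    have hlt0 : 0 < finrank K U := Submodule.one_le_finrank_iff.2 hU0
    have h1 := ih _ (by omega : finrank K U < d) (m + 1) hQ (resRep ψ U hU) rfl (by omega)
    have h2 := ih _ (by omega : finrank K (V ⧸ U) < d) (m + 1) hQ (quotRep ψ U hU) rfl (by omega)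
    refine eq_bot_iff.2 fun y hy => Subgroup.mem_bot.2 (hψ ((LinearMap.ext fun v => ?_).trans
      (map_one ψ).symm))
    obtain ⟨e, he⟩ := hQ y
    have ha : ψ y v - v ∈ U := eq_of_quotRep (h2 y hy) v
    have hfix : ψ y (ψ y v - v) = ψ y v - v :=
      congrArg Subtype.val (LinearMap.congr_fun (h1 y hy) ⟨_, ha⟩)
    have hpow : ∀ N : ℕ, ψ (y ^ N) v = v + N • (ψ y v - v) := by
      intro N
      induction N with
      | zero => simp
      | succ N ihN =>
        rw [pow_succ', map_mul, Module.End.mul_apply, ihN, map_add, map_nsmul, hfix, succ_nsmul]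
        abel
    have h3 := hpow (p ^ e)
    rw [he, map_one, Module.End.one_apply, left_eq_add, ← Nat.cast_smul_eq_nsmul K, smul_eq_zero,
      Nat.cast_pow] at h3
    rw [Module.End.one_apply]
    exact sub_eq_zero.1 (h3.resolve_left (pow_ne_zero _ hchar))
  by_cases hab : Subgroup.center (P ⧸ ρ.ker) = ⊤
  · refine le_bot_iff.1 ((derivedSeries_antitone _ (Nat.succ_le_succ (Nat.zero_le m))).trans ?_)
    rw [derivedSeries_one, commutator_def, Subgroup.commutator_le]
    intro a _ b _
    rw [Subgroup.mem_bot, commutatorElement_eq_one_iff_mul_comm]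
    exact (Subgroup.mem_center_iff.1 (hab.ge (Subgroup.mem_top b)) a)
  -- an element of the second centre
  obtain ⟨z, hz, hzc⟩ : ∃ z, z ∉ Subgroup.center (P ⧸ ρ.ker) ∧
      ∀ g, g * z * g⁻¹ * z⁻¹ ∈ Subgroup.center (P ⧸ ρ.ker) := by
    set Z := Subgroup.center (P ⧸ ρ.ker)
    haveI : Nontrivial ((P ⧸ ρ.ker) ⧸ Z) :=
      QuotientGroup.nontrivial_iff.2 hab
    haveI := (hQ.to_quotient Z).center_nontrivial
    obtain ⟨⟨w, hw⟩, hw1⟩ := exists_ne (1 : Subgroup.center ((P ⧸ ρ.ker) ⧸ Z))
    obtain ⟨z, rfl⟩ := QuotientGroup.mk_surjective w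
    refine ⟨z, fun h => hw1 (Subtype.ext ((QuotientGroup.eq_one_iff z).2 h)), fun g => ?_⟩
    rw [← QuotientGroup.eq_one_iff, QuotientGroup.mk_mul, QuotientGroup.mk_mul,
      QuotientGroup.mk_mul, QuotientGroup.mk_inv, QuotientGroup.mk_inv,
      Subgroup.mem_center_iff.1 hw g]
    group
  set C := Subgroup.centralizer ({z} : Set (P ⧸ ρ.ker)) with hC
  have hcomm : commutator (P ⧸ ρ.ker) ≤ C := by
    rw [commutator_def, Subgroup.commutator_le]
    intro a _ b _
    rw [hC, Subgroup.mem_centralizer_singleton_iff]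
    have key : ∀ g, ∃ c ∈ Subgroup.center (P ⧸ ρ.ker), g * z = c * z * g := fun g =>
      ⟨_, hzc g, by group⟩
    obtain ⟨c, hc, hca⟩ := key a
    obtain ⟨c', hc', hcb⟩ := key b
    have hc1 := Subgroup.mem_center_iff.1 hc
    have hc2 := Subgroup.mem_center_iff.1 hc'
    have e1 : a⁻¹ * z = c⁻¹ * z * a⁻¹ := by
      have : z = a⁻¹ * (c * z * a) := by rw [← hca]; group
      rw [← mul_assoc, ← mul_assoc, hc1 a⁻¹] at this
      nth_rewrite 2 [this]
      group
    have e2 : b⁻¹ * z = c'⁻¹ * z * b⁻¹ := by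
      have : z = b⁻¹ * (c' * z * b) := by rw [← hcb]; group
      rw [← mul_assoc, ← mul_assoc, hc2 b⁻¹] at this
      nth_rewrite 2 [this]
      group
    have i1 := Subgroup.mem_center_iff.1 (inv_mem hc)
    have i2 := Subgroup.mem_center_iff.1 (inv_mem hc')
    calc a * b * a⁻¹ * b⁻¹ * z = a * b * a⁻¹ * (b⁻¹ * z) := by group
      _ = a * b * a⁻¹ * c'⁻¹ * z * b⁻¹ := by rw [e2]; group
      _ = c'⁻¹ * a * b * (a⁻¹ * z) * b⁻¹ := by rw [i2]; group
      _ = c'⁻¹ * (a * b * c⁻¹) * z * a⁻¹ * b⁻¹ := by rw [e1]; group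
      _ = c'⁻¹ * c⁻¹ * a * (b * z) * a⁻¹ * b⁻¹ := by rw [i1]; group
      _ = c'⁻¹ * c⁻¹ * (a * c') * z * b * a⁻¹ * b⁻¹ := by rw [hcb]; group
      _ = c'⁻¹ * (c⁻¹ * c') * (a * z) * b * a⁻¹ * b⁻¹ := by rw [hc2]; group
      _ = c'⁻¹ * (c' * c⁻¹) * (a * z) * b * a⁻¹ * b⁻¹ := by rw [hc2]
      _ = z * (a * b * a⁻¹ * b⁻¹) := by rw [hca]; group
  haveI hCn : C.Normal := ⟨fun c hc g => by
    rw [show g * c * g⁻¹ = ⁅g, c⁆ * c by rw [commutatorElement_def]; group]
    exact C.mul_mem (hcomm (Subgroup.commutator_mem_commutator (Subgroup.mem_top g)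
      (Subgroup.mem_top c))) hc⟩
  obtain ⟨μ, hμ⟩ := Module.End.exists_eigenvalue (ψ z)
  have hCinv : ∀ g ∈ C, ∀ v ∈ (ψ z).eigenspace μ, ψ g v ∈ (ψ z).eigenspace μ := fun g hg v hv => by
    rw [Module.End.mem_eigenspace_iff] at hv ⊢
    rw [← Module.End.mul_apply, ← map_mul, ← Subgroup.mem_centralizer_singleton_iff.1 hg, map_mul,
      Module.End.mul_apply, hv, map_smul]
  have hEne : (ψ z).eigenspace μ ≠ ⊤ := fun h => hz (Subgroup.mem_center_iff.2 fun g => hψ (by
    refine LinearMap.ext fun v => ?_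
    have e : ∀ v, ψ z v = μ • v := fun v =>
      Module.End.mem_eigenspace_iff.1 (h ▸ Submodule.mem_top)
    rw [map_mul, map_mul, Module.End.mul_apply, Module.End.mul_apply, e, e, map_smul]))
  -- a least nonzero `C`-invariant subspace
  obtain ⟨W, ⟨hW0, hW⟩, hmin⟩ : ∃ W : Submodule K V,
      (W ≠ ⊥ ∧ ∀ g ∈ C, ∀ v ∈ W, ψ g v ∈ W) ∧
      ∀ X : Submodule K V, (X ≠ ⊥ ∧ ∀ g ∈ C, ∀ v ∈ X, ψ g v ∈ X) →
        finrank K W ≤ finrank K X := by
    have hex : ∃ k, ∃ X : Submodule K V,
        (X ≠ ⊥ ∧ ∀ g ∈ C, ∀ v ∈ X, ψ g v ∈ X) ∧ finrank K X = k :=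
      ⟨_, _, ⟨hμ, hCinv⟩, rfl⟩
    obtain ⟨W, hW, hWk⟩ := Nat.find_spec hex
    exact ⟨W, hW, fun X hX => hWk ▸ Nat.find_min' hex ⟨X, hX, rfl⟩⟩
  have hWlt : finrank K W < d :=
    lt_of_le_of_lt (hmin _ ⟨hμ, hCinv⟩) (hd ▸ Submodule.finrank_lt hEne)
  have hirr : ∀ U : Submodule K V, (∀ g, ∀ v ∈ U, ψ g v ∈ U) → U ≠ ⊥ → U = ⊤ :=
    fun U hU h0 => by
      by_contra h1
      exact hred ⟨U, hU, h0, h1⟩
  obtain ⟨g, hg⟩ : ∃ g, ∃ v ∈ W, ψ g v ∉ W := by
    by_contra hc
    push Not at hc
    have hd' := congrArg (fun X : Submodule K V => finrank K X) (hirr W hc hW0)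
    simp only [finrank_top] at hd'
    omega
  have hgi : Function.Injective (ψ g) := fun a b h => by
    have := congrArg (ψ g⁻¹) h
    rwa [← Module.End.mul_apply, ← Module.End.mul_apply, ← map_mul, inv_mul_cancel, map_one,
      Module.End.one_apply, Module.End.one_apply] at this
  set W' := W.map (ψ g) with hW'def
  have hW'd : finrank K W' = finrank K W :=
    (Submodule.equivMapOfInjective (ψ g) hgi W).finrank_eq.symm
  have hhalf : 2 * finrank K W ≤ d := by
    have hinf : W ⊓ W' = ⊥ := by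
      by_contra hne
      have h1 := hmin (W ⊓ W') ⟨hne, fun c hc v hv => ⟨hW c hc v hv.1, by
        obtain ⟨w, hw, rfl⟩ := hv.2
        refine ⟨ψ (g⁻¹ * c * g) w, hW _ (by simpa using hCn.conj_mem c hc g⁻¹) w hw, ?_⟩
        rw [← Module.End.mul_apply, ← map_mul, ← Module.End.mul_apply, ← map_mul]
        congr 2
        group⟩⟩
      have e1 : W ⊓ W' = W := Submodule.eq_of_le_of_finrank_le inf_le_left h1
      have e2 : W' = W := (Submodule.eq_of_le_of_finrank_le (inf_eq_left.1 e1) hW'd.le).symm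
      obtain ⟨v, hv, hv'⟩ := hg
      exact hv' (e2.le ⟨v, hv, rfl⟩)
    have h1 := Submodule.finrank_sup_add_finrank_inf_eq W W'
    rw [hinf, finrank_bot, hW'd] at h1
    have h2 := Submodule.finrank_le (W ⊔ W')
    omega
  have hsub := ih _ hWlt m (hQ.to_subgroup C) (resRep (ψ.comp C.subtype) W fun c => hW c c.2) rfl
    (by rw [pow_succ] at hdm; omega)
  set T := (derivedSeries C m).map C.subtype with hT
  haveI hTn : T.Normal := inferInstance
  let Fx : Submodule K V := ⨅ t : T, LinearMap.ker (ψ (t : P ⧸ ρ.ker) - 1)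
  have hFm : ∀ v, v ∈ Fx ↔ ∀ t ∈ T, ψ t v = v := fun v => by
    simp [Fx, Submodule.mem_iInf, LinearMap.mem_ker, sub_eq_zero]
  have hFtop : Fx = ⊤ := by
    refine hirr Fx (fun h v hv => (hFm _).2 fun t ht => ?_) fun h => hW0 (eq_bot_iff.2 ?_)
    · rw [← Module.End.mul_apply, ← map_mul, show t * h = h * (h⁻¹ * t * h) by group, map_mul,
        Module.End.mul_apply, (hFm v).1 hv _ (by simpa using hTn.conj_mem t ht h⁻¹)]
    · rw [← h]
      rintro w hw
      refine (hFm w).2 ?_
      rintro _ ⟨t, ht, rfl⟩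
      exact congrArg Subtype.val (LinearMap.congr_fun (hsub t ht) ⟨w, hw⟩)
  refine eq_bot_iff.2 fun y hy => Subgroup.mem_bot.2 (hψ ((LinearMap.ext fun v => ?_).trans
    (map_one ψ).symm))
  rw [Module.End.one_apply]
  exact (hFm v).1 (hFtop ▸ Submodule.mem_top) y (GLDerived.derivedSeries_succ_le hcomm m hy)

end Cfsg.Agent.DerivedLen
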