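import Mathlib
import Cfsg.Agent.GLDerived.Basic

/-!
# The derived length of the Sylow subgroups of the symmetric groups
-/

set_option autoImplicit false

namespace Cfsg.Agent.DerivedLen

open Subgroup
open scoped commutatorElement

universe u v

variable {p : ℕ} [Fact p.Prime]

/-- A faithful `p`-group action with orbits of size at most `p ^ k` has derived length at most
`k`. -/
theorem derived_bot_of_orbits : ∀ (k : ℕ) {P : Type u} [Group P] [Finite P], IsPGroup p P →
    ∀ {X : Type v} [MulAction P X] [Finite X] [FaithfulSMul P X],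
      (∀ x : X, (MulAction.orbit P x).ncard ≤ p ^ k) → derivedSeries P k = ⊥
  | 0, P, _, _, _, X, _, _, _, h => by
    refine eq_bot_iff.2 fun g _ => Subgroup.mem_bot.2 (FaithfulSMul.eq_of_smul_eq_smul (α := X)
      fun x => ?_)
    rw [one_smul]
    refine (Set.ncard_le_one_iff (Set.toFinite _)).1 (by simpa using h x)
      (MulAction.mem_orbit x g) (MulAction.mem_orbit_self x)
  | k + 1, P, _, _, hP, X, _, _, _, h => by
    have key : derivedSeries ↥(commutator P) k = ⊥ := by
      refine derived_bot_of_orbits k (hP.to_subgroup _) (X := X) fun x => ?_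
      rcases eq_top_or_exists_le_coatom (MulAction.stabilizer P x) with he | ⟨M, hM, hle⟩
      · refine le_trans ?_ (Nat.one_le_pow _ _ (Fact.out : p.Prime).pos)
        rw [Set.ncard_le_one_iff (Set.toFinite _)]
        intro a b ha hb
        obtain ⟨g, rfl⟩ := ha
        obtain ⟨g', rfl⟩ := hb
        have e : ∀ g : P, g • x = x := fun g => MulAction.mem_stabilizer_iff.1 (he ▸ mem_top g)
        exact (e g).trans (e g').symm
      have hDM : commutator P ≤ M :=
        (PGroup.commutator_le_frattini hP).trans (frattini_le_coatom hM)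
      refine le_trans (Set.ncard_le_ncard (t := MulAction.orbit M x) ?_ (Set.toFinite _)) ?_
      · rintro _ ⟨g, rfl⟩
        exact ⟨⟨g, hDM g.2⟩, rfl⟩
      have e1 : (MulAction.orbit M x).ncard = (MulAction.stabilizer P x).relIndex M := by
        rw [← MulAction.index_stabilizer, Subgroup.relIndex]
        congr 1
      have e2 := Subgroup.relIndex_mul_index hle
      rw [PGroup.index_of_isCoatom hP hM, MulAction.index_stabilizer] at e2
      have h' := h x
      rw [← e2, ← e1, pow_succ] at h'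
      exact Nat.le_of_mul_le_mul_right h' (Fact.out : p.Prime).pos
    exact le_bot_iff.1 ((GLDerived.derivedSeries_succ_le (le_refl _) k).trans
      (by rw [key, Subgroup.map_bot]))

/-- The derived length of a `p`-group of permutations of `n` points. -/
theorem perm_derived_bot {n : ℕ} (hn : 1 ≤ n) (P : Subgroup (Equiv.Perm (Fin n)))
    (hP : IsPGroup p P) : derivedSeries P (Nat.log p n) = ⊥ := by
  refine derived_bot_of_orbits _ hP (X := Fin n) fun x => ?_
  obtain ⟨j, hj⟩ := hP.index (MulAction.stabilizer P x)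
  rw [MulAction.index_stabilizer] at hj
  rw [hj]
  refine Nat.pow_le_pow_right (Fact.out : p.Prime).pos
    ((Nat.le_log_iff_pow_le (Fact.out : p.Prime).one_lt (by omega)).2 ?_)
  rw [← hj]
  exact (Set.ncard_le_ncard (Set.subset_univ _) (Set.toFinite _)).trans (by simp)

theorem map_derived_le {A W : Type*} [Group A] [Group W] (j : A →* W)
    (h : j.range ≤ derivedSeries W 1) (k : ℕ) :
    (derivedSeries A k).map j ≤ derivedSeries W (k + 1) := by
  induction k with
  | zero => rwa [derivedSeries_zero, ← MonoidHom.range_eq_map]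
  | succ k ih =>
    rw [derivedSeries_succ, derivedSeries_succ W (k + 1), Subgroup.map_commutator]
    exact Subgroup.commutator_mono ih ih

/-- Blockwise permutations. -/
def blocks {X : Type*} (p : ℕ) (Q : Subgroup (Equiv.Perm X)) :
    (ZMod p → Q) →* Equiv.Perm (X × ZMod p) :=
  MonoidHom.mk' (fun f => Equiv.prodCongrLeft fun i => (f i : Equiv.Perm X)) fun f g => by
    ext ⟨x, i⟩ <;> simp

theorem blocks_apply {X : Type*} (p : ℕ) (Q : Subgroup (Equiv.Perm X)) (f : ZMod p → Q) (x : X)
    (i : ZMod p) : blocks p Q f (x, i) = ((f i : Equiv.Perm X) x, i) := rfl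

theorem blocks_injective {X : Type*} (p : ℕ) (Q : Subgroup (Equiv.Perm X)) :
    Function.Injective (blocks p Q) := fun f g h => funext fun i => Subtype.ext (Equiv.ext fun x =>
  congrArg Prod.fst (Equiv.congr_fun h (x, i)))

/-- The wreath step. -/
theorem exists_wreath {X : Type u} [Finite X] {Q : Subgroup (Equiv.Perm X)} (hQ : IsPGroup p Q)
    {k : ℕ} (hd : derivedSeries Q k ≠ ⊥) :
    ∃ W : Subgroup (Equiv.Perm (X × ZMod p)), IsPGroup p W ∧ derivedSeries W (k + 1) ≠ ⊥ := by
  have hp := (Fact.out : p.Prime)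
  let s : Equiv.Perm (X × ZMod p) := Equiv.prodCongr (Equiv.refl X) (Equiv.addRight 1)
  set δ := blocks p Q with hδdef
  have hs : ∀ x i, s (x, i) = (x, i + 1) := fun _ _ => rfl
  have hsδ : ∀ f : ZMod p → Q, s * δ f * s⁻¹ = δ fun i => f (i - 1) := fun f => by
    rw [mul_inv_eq_iff_eq_mul]
    ext ⟨x, i⟩ <;> simp [hs, hδdef, blocks_apply]
  have hsp : s ^ p = 1 := by
    have e : ∀ (m : ℕ) (x : X) (i : ZMod p), (s ^ m) (x, i) = (x, i + m) := by
      intro m
      induction m with
      | zero => simp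
      | succ m ih =>
        intro x i
        rw [pow_succ', Equiv.Perm.mul_apply, ih, hs]
        push_cast
        simp [add_assoc]
    refine Equiv.ext fun ⟨x, i⟩ => ?_
    rw [e, ZMod.natCast_self, add_zero, Equiv.Perm.one_apply]
  have hB : IsPGroup p δ.range := by
    obtain ⟨e, he⟩ := IsPGroup.iff_card.1 hQ
    refine (IsPGroup.of_card (n := e * p) ?_).of_surjective δ.rangeRestrict δ.rangeRestrict_surjective
    rw [Nat.card_fun, he, Nat.card_zmod, pow_mul]
  have hZ : IsPGroup p (zpowers s) := by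
    obtain ⟨j, -, hj⟩ := (Nat.dvd_prime_pow hp).1 ((orderOf_dvd_of_pow_eq_one hsp).trans
      (pow_one p).symm.dvd)
    exact IsPGroup.of_card (n := j) (by rw [Nat.card_zpowers, hj])
  have hnorm : zpowers s ≤ normalizer (δ.range : Set (Equiv.Perm (X × ZMod p))) := by
    refine zpowers_le.2 (Subgroup.mem_normalizer_iff.2 fun g => ⟨?_, fun ⟨f, hf⟩ => ?_⟩)
    · rintro ⟨f, rfl⟩
      exact ⟨_, (hsδ f).symm⟩
    · refine ⟨fun i => f (i + 1), ?_⟩
      have := hsδ (fun i => f (i + 1))
      simp only [sub_add_cancel] at this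
      rw [hf] at this
      exact mul_left_cancel (mul_right_cancel this)
  set W := δ.range ⊔ zpowers s with hW
  refine ⟨W, hB.to_sup_of_normal_left' hZ hnorm, fun hbot => hd ?_⟩
  let δW : (ZMod p → Q) →* W :=
    δ.codRestrict W fun f => Subgroup.mem_sup_left ⟨f, rfl⟩
  set A := (derivedSeries W 1).comap δW with hA
  let φ : A →* Q := (Pi.evalMonoidHom (fun _ : ZMod p => ↥Q) 0).comp A.subtype
  have hφ : Function.Surjective φ := by
    intro β
    let f : ZMod p → Q := Pi.mulSingle 0 β
    refine ⟨⟨fun i => f i * (f (i - 1))⁻¹, ?_⟩, ?_⟩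
    · rw [hA, Subgroup.mem_comap, derivedSeries_one]
      have e : δW (fun i => f i * (f (i - 1))⁻¹) =
          ⁅δW f, (⟨s, Subgroup.mem_sup_right (mem_zpowers s)⟩ : W)⁆ := by
        refine Subtype.ext ?_
        show δ (fun i => f i * (f (i - 1))⁻¹) = δ f * s * (δ f)⁻¹ * s⁻¹
        rw [show δ f * s * (δ f)⁻¹ * s⁻¹ = δ f * (s * δ f * s⁻¹)⁻¹ by group, hsδ, ← map_inv,
          ← map_mul]
        rfl
      rw [e]
      exact Subgroup.commutator_mem_commutator (Subgroup.mem_top _) (Subgroup.mem_top _)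
    · haveI : Fact (1 < p) := ⟨hp.one_lt⟩
      show f 0 * (f (0 - 1))⁻¹ = β
      simp [f]
  have h1 := map_derived_le (δW.comp A.subtype) (by rintro _ ⟨a, rfl⟩; exact a.2) k
  rw [hbot, le_bot_iff, Subgroup.map_eq_bot_iff] at h1
  have h2 : (δW.comp A.subtype).ker = ⊥ := (MonoidHom.ker_eq_bot_iff _).2 fun a b h =>
    Subtype.ext (blocks_injective p Q (congrArg Subtype.val h))
  rw [h2, le_bot_iff] at h1
  rw [← map_derivedSeries_eq hφ, h1, Subgroup.map_bot]

theorem derived_ne_bot_map {A B : Type*} [Group A] [Group B] (f : A →* B)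
    (hf : Function.Injective f) {k : ℕ} (h : derivedSeries A k ≠ ⊥) : derivedSeries B k ≠ ⊥ := by
  intro hB
  refine h ((Subgroup.map_eq_bot_iff_of_injective _ hf).1 (le_bot_iff.1 ?_))
  exact hB ▸ map_derivedSeries_le_derivedSeries f k

/-- A `p`-group of permutations of `p ^ (k + 1)` points with derived length above `k`. -/
theorem exists_pGroup_derived (p : ℕ) [Fact p.Prime] : ∀ k : ℕ,
    ∃ Q : Subgroup (Equiv.Perm (Fin (p ^ (k + 1)))), IsPGroup p Q ∧ derivedSeries Q k ≠ ⊥
  | 0 => by
    obtain ⟨P⟩ : Nonempty (Sylow p (Equiv.Perm (Fin (p ^ (0 + 1))))) := inferInstance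
    refine ⟨P, P.isPGroup', ?_⟩
    rw [derivedSeries_zero]
    intro h
    have h1 : p ∣ Nat.card (Equiv.Perm (Fin (p ^ (0 + 1)))) := by
      rw [Nat.card_perm, Nat.card_fin, zero_add, pow_one]
      exact Nat.dvd_factorial (Fact.out : p.Prime).pos le_rfl
    have h2 := P.dvd_card_of_dvd_card h1
    rw [← Subgroup.card_top, h, Subgroup.card_bot] at h2
    exact (Fact.out : p.Prime).not_dvd_one h2
  | k + 1 => by
    obtain ⟨Q, hQ, hd⟩ := exists_pGroup_derived p k
    obtain ⟨W, hW, hWd⟩ := exists_wreath hQ hd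
    let e : Fin (p ^ (k + 1)) × ZMod p ≃ Fin (p ^ (k + 1 + 1)) :=
      Finite.equivFinOfCardEq (by rw [Nat.card_prod, Nat.card_fin, Nat.card_zmod, ← pow_succ])
    refine ⟨W.map e.permCongrHom.toMonoidHom, hW.map _, ?_⟩
    exact derived_ne_bot_map (W.equivMapOfInjective _ e.permCongrHom.injective).toMonoidHom
      (MulEquiv.injective _) hWd

/-- The lower bound in the symmetric group on `n` points. -/
theorem sylow_derived_ne_bot {n : ℕ} (hn : n ≠ 0) (hk : 1 ≤ Nat.log p n)
    (P : Sylow p (Equiv.Perm (Fin n))) :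
    derivedSeries ↥(P : Subgroup (Equiv.Perm (Fin n))) (Nat.log p n - 1) ≠ ⊥ := by
  obtain ⟨Q, hQ, hd⟩ := exists_pGroup_derived p (Nat.log p n - 1)
  have hle : p ^ (Nat.log p n - 1 + 1) ≤ n := by
    rw [Nat.sub_add_cancel hk]
    exact Nat.pow_log_le_self p hn
  let j : Fin (p ^ (Nat.log p n - 1 + 1)) ↪ Fin n := Fin.castLEEmb hle
  have hj : Function.Injective (Equiv.Perm.viaEmbeddingHom j) :=
    Equiv.Perm.viaEmbeddingHom_injective j
  obtain ⟨P', hP'⟩ := (hQ.map (Equiv.Perm.viaEmbeddingHom j)).exists_le_sylow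
  refine derived_ne_bot_map
    (((P'.equiv P).toMonoidHom.comp (Subgroup.inclusion hP')).comp
      (Q.equivMapOfInjective _ hj).toMonoidHom) ?_ hd
  exact ((P'.equiv P).injective.comp (Subgroup.inclusion_injective hP')).comp (MulEquiv.injective _)

end Cfsg.Agent.DerivedLen
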