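import Mathlib
import Cfsg.Agent.DerivedLen.Linear
import Cfsg.Agent.DerivedLen.SymSylow

/-!
# Derived length of Sylow 2-subgroups of symplectic groups in odd characteristic

The upper bound is the bound for linear groups; the lower bound comes from the quaternion group in
`SL_2` and regular wreath products by a group of order two.
-/

set_option autoImplicit false
set_option linter.style.haveILetI false

namespace Cfsg.Agent.DerivedLen.Symp

open Matrix
open scoped commutatorElement

universe u v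

variable {F : Type v} [Field F]

/-- A representation preserving a form reindexed to the standard one lands in the symplectic group. -/
def toSymp {A : Type*} [Monoid A] {m l : Type*} [Fintype m] [DecidableEq m] [Fintype l] [DecidableEq l]
    (φ : A →* Matrix m m F) (e : m ≃ l ⊕ l) (N : Matrix m m F)
    (hN : Matrix.reindexAlgEquiv F F e N = Matrix.J l F) (h : ∀ a, φ a * N * (φ a)ᵀ = N) :
    A →* Matrix.symplecticGroup l F :=
  MonoidHom.codRestrict (((Matrix.reindexAlgEquiv F F e : Matrix m m F →* Matrix (l ⊕ l) (l ⊕ l) F)).comp φ)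
    (Matrix.symplecticGroup l F) fun a => by
      rw [SymplecticGroup.mem_iff]
      have ht : ((Matrix.reindexAlgEquiv F F e) (φ a))ᵀ = Matrix.reindexAlgEquiv F F e ((φ a)ᵀ) := rfl
      show Matrix.reindexAlgEquiv F F e (φ a) * Matrix.J l F * ((Matrix.reindexAlgEquiv F F e) (φ a))ᵀ = _
      rw [ht, ← hN, ← map_mul, ← map_mul, h a]

theorem toSymp_injective {A : Type*} [Monoid A] {m l : Type*} [Fintype m] [DecidableEq m] [Fintype l]
    [DecidableEq l] (φ : A →* Matrix m m F) (e : m ≃ l ⊕ l) (N : Matrix m m F)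
    (hN : Matrix.reindexAlgEquiv F F e N = Matrix.J l F) (h : ∀ a, φ a * N * (φ a)ᵀ = N)
    (hφ : Function.Injective φ) : Function.Injective (toSymp φ e N hN h) := fun a b hab =>
  hφ ((Matrix.reindexAlgEquiv F F e).injective (congrArg Subtype.val hab))

theorem coe_mul_J {A : Type*} [Monoid A] {l : Type*} [Fintype l] [DecidableEq l]
    (ρ : A →* Matrix.symplecticGroup l F) (a : A) :
    (ρ a : Matrix (l ⊕ l) (l ⊕ l) F) * Matrix.J l F * (ρ a : Matrix (l ⊕ l) (l ⊕ l) F)ᵀ =
      Matrix.J l F :=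
  SymplecticGroup.mem_iff.1 (ρ a).2

/-! ### The wreath step -/

/-- The block monomial representation of a regular wreath product. -/
def wreathRep {D Q : Type*} [Group D] [Group Q] [Fintype Q] [DecidableEq Q] {m : Type*} [Fintype m]
    [DecidableEq m] (ρ : D →* Matrix m m F) : D ≀ᵣ Q →* Matrix (m × Q) (m × Q) F where
  toFun w := fun i j => if j.2 = w.right⁻¹ * i.2 then ρ (w.left i.2) i.1 j.1 else 0
  map_one' := by
    ext ⟨x, a⟩ ⟨y, b⟩
    simp only [RegularWreathProduct.one_right, inv_one, one_mul, RegularWreathProduct.one_left,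
      Pi.one_apply, map_one, Matrix.one_apply, Prod.mk.injEq]
    by_cases h : b = a
    · subst h; simp
    · simp [h, Ne.symm h]
  map_mul' v w := by
    ext ⟨x, a⟩ ⟨z, c⟩
    refine Eq.trans ?_ (Matrix.mul_apply.trans (Fintype.sum_prod_type _)).symm
    show (if c = (v * w).right⁻¹ * a then ρ ((v * w).left a) x z else 0) =
      ∑ y, ∑ b, (if b = v.right⁻¹ * a then ρ (v.left a) x y else 0) *
        (if c = w.right⁻¹ * b then ρ (w.left b) y z else 0)
    simp only [ite_mul, zero_mul, Finset.sum_ite_eq', Finset.mem_univ, if_true]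
    rw [RegularWreathProduct.mul_right, _root_.mul_inv_rev, mul_assoc]
    split_ifs with h
    · rw [RegularWreathProduct.mul_left]
      simp only [Pi.mul_apply, map_mul, Matrix.mul_apply]
    · simp

theorem wreathRep_injective {D Q : Type*} [Group D] [Group Q] [Fintype Q] [DecidableEq Q] {m : Type*}
    [Fintype m] [DecidableEq m] [Nonempty m] (ρ : D →* Matrix m m F) (hρ : Function.Injective ρ) :
    Function.Injective (wreathRep (Q := Q) ρ) := by
  rw [injective_iff_map_eq_one]
  intro w hw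
  have h : ∀ x a y b, (if b = w.right⁻¹ * a then ρ (w.left a) x y else 0) =
      if (x, a) = (y, b) then (1 : F) else 0 := fun x a y b => congrFun (congrFun hw (x, a)) (y, b)
  have hr : w.right = 1 := by
    obtain ⟨x⟩ := ‹Nonempty m›
    have h1 := h x 1 x 1
    by_contra hne
    rw [if_neg (by rwa [mul_one, eq_comm, inv_eq_one]), if_pos rfl] at h1
    exact zero_ne_one h1
  refine RegularWreathProduct.ext (funext fun a => hρ ?_) hr
  rw [RegularWreathProduct.one_left, Pi.one_apply, map_one]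
  ext x y
  have h1 := h x a y a
  rw [if_pos (by rw [hr, inv_one, one_mul])] at h1
  rw [h1, Matrix.one_apply]
  simp

theorem exists_wreath_symp {D Q : Type*} [Group D] [Group Q] [Fintype Q] [DecidableEq Q] {l : Type*}
    [Fintype l] [DecidableEq l] [Nonempty l] (ρ : D →* Matrix.symplecticGroup l F)
    (hρ : Function.Injective ρ) :
    ∃ σ : D ≀ᵣ Q →* Matrix.symplecticGroup (l × Q) F, Function.Injective σ := by
  let ρ' : D →* Matrix (l ⊕ l) (l ⊕ l) F := (Matrix.symplecticGroup l F).subtype.comp ρ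
  let N : Matrix ((l ⊕ l) × Q) ((l ⊕ l) × Q) F := fun i j => if j.2 = i.2 then Matrix.J l F i.1 j.1 else 0
  have hN : Matrix.reindexAlgEquiv F F (Equiv.sumProdDistrib l l Q) N = Matrix.J (l × Q) F := by
    ext i j
    rcases i with ⟨x, a⟩ | ⟨x, a⟩ <;> rcases j with ⟨y, b⟩ | ⟨y, b⟩ <;>
      show (if b = a then Matrix.J l F _ _ else 0) = Matrix.J (l × Q) F _ _ <;>
      by_cases h : b = a <;> simp [Matrix.J, Matrix.one_apply, h, Ne.symm]
  have h : ∀ w, wreathRep ρ' w * N * (wreathRep ρ' w)ᵀ = N := by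
    intro w
    ext ⟨x, a⟩ ⟨z, c⟩
    rw [Matrix.mul_apply, Fintype.sum_prod_type]
    have h1 : ∀ y b, (wreathRep ρ' w * N) (x, a) (y, b) =
        if b = w.right⁻¹ * a then (ρ' (w.left a) * Matrix.J l F) x y else 0 := fun y b => by
      rw [Matrix.mul_apply, Fintype.sum_prod_type]
      show ∑ s, ∑ t, (if t = w.right⁻¹ * a then ρ' (w.left a) x s else 0) *
        (if b = t then Matrix.J l F s y else 0) = _
      simp only [ite_mul, zero_mul, Finset.sum_ite_eq', Finset.mem_univ, if_true]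
      split_ifs with hb
      · rw [Matrix.mul_apply]
      · simp
    simp only [h1, Matrix.transpose_apply]
    show ∑ y, ∑ b, (if b = w.right⁻¹ * a then (ρ' (w.left a) * Matrix.J l F) x y else 0) *
      (if b = w.right⁻¹ * c then ρ' (w.left c) z y else 0) = if c = a then Matrix.J l F x z else 0
    simp only [ite_mul, zero_mul, Finset.sum_ite_eq', Finset.mem_univ, if_true]
    by_cases hca : c = a
    · subst hca
      rw [if_pos rfl]
      simp only [if_true]
      have h2 := congrFun (congrFun (coe_mul_J ρ (w.left c)) x) z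
      rw [Matrix.mul_apply] at h2
      simpa [ρ', Matrix.transpose_apply] using h2
    · rw [if_neg hca]
      have : ¬ w.right⁻¹ * a = w.right⁻¹ * c := fun h => hca (mul_left_cancel h).symm
      simp [this]
  exact ⟨toSymp (wreathRep ρ') _ N hN h,
    toSymp_injective _ _ _ _ _ (wreathRep_injective ρ' (Subtype.val_injective.comp hρ))⟩

theorem derived_wreath_ne_bot {D Q : Type*} [Group D] [Group Q] [Nontrivial Q] {k : ℕ}
    (hd : derivedSeries D k ≠ ⊥) : derivedSeries (D ≀ᵣ Q) (k + 1) ≠ ⊥ := by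
  classical
  intro hbot
  refine hd ?_
  obtain ⟨q, hq⟩ := exists_ne (1 : Q)
  let δ : (Q → D) →* D ≀ᵣ Q :=
    { toFun := fun f => ⟨f, 1⟩
      map_one' := rfl
      map_mul' := fun f g => RegularWreathProduct.ext (funext fun a => by simp) (by simp) }
  set A := (derivedSeries (D ≀ᵣ Q) 1).comap δ with hA
  let φ : A →* D := (Pi.evalMonoidHom (fun _ : Q => D) 1).comp A.subtype
  have hφ : Function.Surjective φ := by
    intro β
    let f : Q → D := Pi.mulSingle 1 β
    refine ⟨⟨fun a => f a * (f (q⁻¹ * a))⁻¹, ?_⟩, ?_⟩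
    · rw [hA, Subgroup.mem_comap, derivedSeries_one]
      have e : δ (fun a => f a * (f (q⁻¹ * a))⁻¹) = ⁅δ f, RegularWreathProduct.inl q⁆ := by
        refine RegularWreathProduct.ext (funext fun a => ?_) ?_
        · simp [δ, commutatorElement_def]
        · simp [δ, commutatorElement_def]
      rw [e]
      exact Subgroup.commutator_mem_commutator (Subgroup.mem_top _) (Subgroup.mem_top _)
    · show f 1 * (f (q⁻¹ * 1))⁻¹ = β
      have : q⁻¹ ≠ 1 := inv_ne_one.2 hq
      simp [f, this]
  have h1 := map_derived_le (δ.comp A.subtype) (by rintro _ ⟨a, rfl⟩; exact a.2) k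
  rw [hbot, le_bot_iff, Subgroup.map_eq_bot_iff] at h1
  have h2 : (δ.comp A.subtype).ker = ⊥ := (MonoidHom.ker_eq_bot_iff _).2 fun a b h =>
    Subtype.ext (congrArg RegularWreathProduct.left h)
  rw [h2, le_bot_iff] at h1
  rw [← map_derivedSeries_eq hφ, h1, Subgroup.map_bot]

theorem exists_pad_symp {l r : Type*} [Fintype l] [DecidableEq l] [Fintype r] [DecidableEq r] :
    ∃ σ : Matrix.symplecticGroup l F →* Matrix.symplecticGroup (l ⊕ r) F, Function.Injective σ := by
  let φ : Matrix.symplecticGroup l F →* Matrix ((l ⊕ l) ⊕ (r ⊕ r)) ((l ⊕ l) ⊕ (r ⊕ r)) F :=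
    { toFun := fun X => fromBlocks (X : Matrix (l ⊕ l) (l ⊕ l) F) 0 0 1
      map_one' := fromBlocks_one
      map_mul' := fun X Y => by simp [fromBlocks_multiply] }
  let N : Matrix ((l ⊕ l) ⊕ (r ⊕ r)) ((l ⊕ l) ⊕ (r ⊕ r)) F :=
    fromBlocks (Matrix.J l F) 0 0 (Matrix.J r F)
  refine ⟨toSymp φ (Equiv.sumSumSumComm l l r r) N ?_ (fun X => ?_), toSymp_injective _ _ _ _ _ fun X Y h => ?_⟩
  · ext i j
    rcases i with (x | x) | (x | x) <;> rcases j with (y | y) | (y | y) <;>
      simp [N, Matrix.J, Matrix.one_apply, Equiv.sumSumSumComm]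
  · have := SymplecticGroup.mem_iff.1 X.2
    simp [φ, N, fromBlocks_multiply, fromBlocks_transpose, this]
  · exact Subtype.ext (congrArg toBlocks₁₁ h)

theorem exists_reindex_symp {l l' : Type*} [Fintype l] [DecidableEq l] [Fintype l'] [DecidableEq l']
    (e : l ≃ l') :
    ∃ σ : Matrix.symplecticGroup l F →* Matrix.symplecticGroup l' F, Function.Injective σ := by
  refine ⟨toSymp (Matrix.symplecticGroup l F).subtype (e.sumCongr e) (Matrix.J l F) ?_
    (fun X => SymplecticGroup.mem_iff.1 X.2), toSymp_injective _ _ _ _ _ Subtype.val_injective⟩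
  ext i j
  rcases i with x | x <;> rcases j with y | y <;> simp [Matrix.J, Matrix.one_apply]

/-! ### The base: a quaternion group in `Sp_2` -/

theorem exists_base [Finite F] (hF : ringChar F ≠ 2) :
    ∃ (D : Type v) (_ : Group D) (_ : Finite D) (ρ : D →* Matrix.symplecticGroup (Fin 1) F),
      IsPGroup 2 D ∧ Function.Injective ρ ∧ derivedSeries D 1 ≠ ⊥ := by
  haveI : Fact (Nat.Prime 2) := ⟨Nat.prime_two⟩
  classical
  haveI := Fintype.ofFinite F
  obtain ⟨x, y, hxy⟩ : ∃ x y : F, x ^ 2 + y ^ 2 = -1 := by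
    obtain ⟨a, b, hab⟩ := FiniteField.exists_root_sum_quadratic (R := F)
      (f := Polynomial.X ^ 2) (g := Polynomial.X ^ 2 + Polynomial.C 1)
      (Polynomial.degree_X_pow 2) (by rw [Polynomial.degree_X_pow_add_C (by norm_num)]; rfl)
      (FiniteField.odd_card_of_char_ne_two hF)
    exact ⟨a, b, by simp at hab; linear_combination hab⟩
  have h2 : (2 : F) ≠ 0 := Ring.two_ne_zero hF
  let mk : F → F → F → F → Matrix (Fin 1 ⊕ Fin 1) (Fin 1 ⊕ Fin 1) F := fun a b c d =>
    fromBlocks (Matrix.of fun _ _ => a) (Matrix.of fun _ _ => b) (Matrix.of fun _ _ => c) (Matrix.of fun _ _ => d)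
  have hmem : ∀ a b c d : F, a * d - b * c = 1 → mk a b c d ∈ Matrix.symplecticGroup (Fin 1) F := by
    intro a b c d h
    rw [SymplecticGroup.mem_iff]
    ext i j
    rcases i with i | i <;> rcases j with j | j <;> fin_cases i <;> fin_cases j <;>
      simp [mk, Matrix.J, fromBlocks_multiply, fromBlocks_transpose, Matrix.mul_apply] <;>
      first | linear_combination h | linear_combination -h | ring
  let A : Matrix.symplecticGroup (Fin 1) F := ⟨mk 0 1 (-1) 0, hmem _ _ _ _ (by ring)⟩
  let B : Matrix.symplecticGroup (Fin 1) F := ⟨mk x y y (-x), hmem _ _ _ _ (by linear_combination -hxy)⟩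
  have hmul : ∀ a b c d a' b' c' d' : F, mk a b c d * mk a' b' c' d' =
      mk (a * a' + b * c') (a * b' + b * d') (c * a' + d * c') (c * b' + d * d') := by
    intro a b c d a' b' c' d'
    simp only [mk, fromBlocks_multiply]
    congr 1 <;> ext i j <;> simp [Matrix.mul_apply]
  have hone : (1 : Matrix (Fin 1 ⊕ Fin 1) (Fin 1 ⊕ Fin 1) F) = mk 1 0 0 1 := by
    ext i j
    rcases i with i | i <;> rcases j with j | j <;> fin_cases i <;> fin_cases j <;> simp [mk]
  have hA4 : A ^ 2 ^ 2 = 1 := Subtype.ext (by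
    show (mk 0 1 (-1) 0) ^ 4 = 1
    rw [show (4 : ℕ) = 2 * 2 from rfl, pow_mul, pow_two, pow_two, hmul, hmul, hone]
    simp)
  have hB4 : B ^ 2 ^ 2 = 1 := Subtype.ext (by
    show (mk x y y (-x)) ^ 4 = 1
    have hx : x * x + y * y = -1 := by linear_combination hxy
    have hy : y * y + -x * -x = -1 := by linear_combination hxy
    have h0 : x * y + y * -x = 0 := by ring
    have h0' : y * x + -x * y = 0 := by ring
    rw [show (4 : ℕ) = 2 * 2 from rfl, pow_mul, pow_two, pow_two, hmul, hx, hy, h0, h0', hmul, hone]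
    simp)
  have hBA : B * A = A⁻¹ * B := by
    rw [eq_inv_mul_iff_mul_eq]
    refine Subtype.ext ?_
    show mk 0 1 (-1) 0 * (mk x y y (-x) * mk 0 1 (-1) 0) = mk x y y (-x)
    rw [hmul, hmul]
    congr 1 <;> ring
  have hnorm : Subgroup.zpowers B ≤ Subgroup.normalizer (Subgroup.zpowers A : Set (Matrix.symplecticGroup (Fin 1) F)) := by
    refine Subgroup.zpowers_le.2 (Subgroup.mem_normalizer_iff.2 fun g => ?_)
    have hconj : ∀ i : ℤ, B * A ^ i * B⁻¹ = A ^ (-i) := fun i => by
      rw [← conj_zpow, hBA, mul_inv_cancel_right, _root_.inv_zpow']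
    constructor
    · intro hg
      obtain ⟨i, rfl⟩ := Subgroup.mem_zpowers_iff.1 hg
      exact ⟨-i, (hconj i).symm⟩
    · intro hg
      obtain ⟨i, hi⟩ := Subgroup.mem_zpowers_iff.1 hg
      refine ⟨-i, ?_⟩
      show A ^ (-i) = g
      have h' := hconj (-i)
      rw [neg_neg, hi] at h'
      exact mul_left_cancel (mul_right_cancel h')
  have hpA : IsPGroup 2 (Subgroup.zpowers A) := by
    obtain ⟨j, -, hj⟩ := (Nat.dvd_prime_pow Nat.prime_two).1 (orderOf_dvd_of_pow_eq_one hA4)
    exact IsPGroup.of_card (n := j) (by rw [Nat.card_zpowers, hj])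
  have hpB : IsPGroup 2 (Subgroup.zpowers B) := by
    obtain ⟨j, -, hj⟩ := (Nat.dvd_prime_pow Nat.prime_two).1 (orderOf_dvd_of_pow_eq_one hB4)
    exact IsPGroup.of_card (n := j) (by rw [Nat.card_zpowers, hj])
  refine ⟨↥(Subgroup.zpowers A ⊔ Subgroup.zpowers B), inferInstance, inferInstance,
    (Subgroup.zpowers A ⊔ Subgroup.zpowers B).subtype, hpA.to_sup_of_normal_left' hpB hnorm,
    Subtype.val_injective, ?_⟩
  intro h
  rw [derivedSeries_one, eq_bot_iff] at h
  have hc : ⁅(⟨A, Subgroup.mem_sup_left (Subgroup.mem_zpowers A)⟩ : ↥(Subgroup.zpowers A ⊔ Subgroup.zpowers B)),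
      (⟨B, Subgroup.mem_sup_right (Subgroup.mem_zpowers B)⟩ : ↥(Subgroup.zpowers A ⊔ Subgroup.zpowers B))⁆ =
      (1 : ↥(Subgroup.zpowers A ⊔ Subgroup.zpowers B)) :=
    Subgroup.mem_bot.1 (h (Subgroup.commutator_mem_commutator (Subgroup.mem_top _) (Subgroup.mem_top _)))
  rw [commutatorElement_eq_one_iff_mul_comm] at hc
  have e : mk 0 1 (-1) 0 * mk x y y (-x) = mk x y y (-x) * mk 0 1 (-1) 0 :=
    congrArg (fun t : ↥(Subgroup.zpowers A ⊔ Subgroup.zpowers B) =>
      ((t : Matrix.symplecticGroup (Fin 1) F) : Matrix (Fin 1 ⊕ Fin 1) (Fin 1 ⊕ Fin 1) F)) hc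
  rw [hmul, hmul] at e
  have e1 : (0 : F) * x + 1 * y = x * 0 + y * -1 := congrFun (congrFun e (Sum.inl 0)) (Sum.inl 0)
  have e2 : (0 : F) * y + 1 * -x = x * 1 + y * 0 := congrFun (congrFun e (Sum.inl 0)) (Sum.inr 0)
  have hy : y = 0 := by
    have : 2 * y = 0 := by linear_combination e1
    exact (mul_eq_zero.1 this).resolve_left h2
  have hx : x = 0 := by
    have : 2 * x = 0 := by linear_combination -e2
    exact (mul_eq_zero.1 this).resolve_left h2
  rw [hx, hy] at hxy
  exact one_ne_zero (by linear_combination hxy : (1 : F) = 0)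

/-- A 2-subgroup of `Sp_{2^(j+1)}` of derived length at least `j + 2`. -/
theorem exists_lower [Finite F] (hF : ringChar F ≠ 2) : ∀ j : ℕ,
    ∃ (D : Type v) (_ : Group D) (_ : Finite D) (ρ : D →* Matrix.symplecticGroup (Fin (2 ^ j)) F),
      IsPGroup 2 D ∧ Function.Injective ρ ∧ derivedSeries D (j + 1) ≠ ⊥
  | 0 => exists_base hF
  | j + 1 => by
    classical
    obtain ⟨D, _, _, ρ, hD, hρ, hd⟩ := exists_lower hF j
    haveI : Fact (Nat.Prime 2) := ⟨Nat.prime_two⟩
    haveI : Nonempty (Fin (2 ^ j)) := ⟨⟨0, by positivity⟩⟩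
    obtain ⟨σ, hσ⟩ := exists_wreath_symp (Q := Multiplicative (ZMod 2)) ρ hρ
    obtain ⟨τ, hτ⟩ := exists_reindex_symp (F := F)
      (Finite.equivFinOfCardEq (n := 2 ^ (j + 1)) (α := Fin (2 ^ j) × Multiplicative (ZMod 2)) (by
        rw [Nat.card_prod, Nat.card_fin,
          Nat.card_congr (Multiplicative.toAdd : Multiplicative (ZMod 2) ≃ ZMod 2), Nat.card_zmod, pow_succ]))
    haveI : Finite (D ≀ᵣ Multiplicative (ZMod 2)) :=
      Finite.of_equiv _ (RegularWreathProduct.equivProd D (Multiplicative (ZMod 2))).symm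
    refine ⟨D ≀ᵣ Multiplicative (ZMod 2), inferInstance, inferInstance, τ.comp σ, ?_, hτ.comp hσ,
      derived_wreath_ne_bot hd⟩
    obtain ⟨a, ha⟩ := IsPGroup.iff_card.1 hD
    refine IsPGroup.of_card (n := a * 2 + 1) ?_
    rw [Nat.card_congr (RegularWreathProduct.equivProd D (Multiplicative (ZMod 2))), Nat.card_prod,
      Nat.card_fun, Nat.card_congr (Multiplicative.toAdd : Multiplicative (ZMod 2) ≃ ZMod 2),
      Nat.card_zmod, ha, ← pow_mul, pow_succ]

theorem sylow_derived [Fintype F] [DecidableEq F] (hF : ringChar F ≠ 2) (n : ℕ) (hn : 1 ≤ n)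
    (R : Sylow 2 ↥(Matrix.symplecticGroup (Fin n) F)) :
    derivedSeries ↥(R : Subgroup ↥(Matrix.symplecticGroup (Fin n) F)) (Nat.log 2 (2 * n) + 1) = ⊥ ∧
      derivedSeries ↥(R : Subgroup ↥(Matrix.symplecticGroup (Fin n) F)) (Nat.log 2 (2 * n)) ≠ ⊥ := by
  classical
  haveI : Fact (Nat.Prime 2) := ⟨Nat.prime_two⟩
  constructor
  · let K := AlgebraicClosure F
    let ρ : ↥(R : Subgroup ↥(Matrix.symplecticGroup (Fin n) F)) →*
        Module.End K (Fin n ⊕ Fin n → K) :=
      ((Matrix.toLinAlgEquiv' : Matrix (Fin n ⊕ Fin n) (Fin n ⊕ Fin n) K ≃ₐ[K] _) :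
          Matrix (Fin n ⊕ Fin n) (Fin n ⊕ Fin n) K →* Module.End K (Fin n ⊕ Fin n → K)).comp
        (((algebraMap F K).mapMatrix :
            Matrix (Fin n ⊕ Fin n) (Fin n ⊕ Fin n) F →+* Matrix (Fin n ⊕ Fin n) (Fin n ⊕ Fin n) K).toMonoidHom.comp
          ((Matrix.symplecticGroup (Fin n) F).subtype.comp
            (R : Subgroup ↥(Matrix.symplecticGroup (Fin n) F)).subtype))
    have hρ : Function.Injective ρ := fun a b h => Subtype.ext (Subtype.ext (Matrix.map_injective
      (algebraMap F K).injective (Matrix.toLinAlgEquiv'.injective h)))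
    refine eq_bot_iff.2 fun g hg => Subgroup.mem_bot.2 (hρ ?_)
    rw [map_one]
    refine derived_trivial_coprime (p := 2) (K := K) ?_ (2 * n) _ R.isPGroup' ρ ?_ ?_ g hg
    · intro h
      have h' : algebraMap F K 2 = algebraMap F K 0 := by rw [map_ofNat, map_zero]; exact_mod_cast h
      exact Ring.two_ne_zero hF ((algebraMap F K).injective h')
    · rw [Module.finrank_fintype_fun_eq_card, Fintype.card_sum, Fintype.card_fin, two_mul]
    · exact Nat.lt_pow_succ_log_self (by norm_num) _
  · have hlog : Nat.log 2 (2 * n) = Nat.log 2 n + 1 := by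
      rw [mul_comm, Nat.log_mul_base (by norm_num) (by omega)]
    rw [hlog]
    obtain ⟨D, _, _, ρ, hD, hρ, hd⟩ := exists_lower (F := F) hF (Nat.log 2 n)
    have hle := Nat.pow_log_le_self 2 (show n ≠ 0 by omega)
    obtain ⟨σ, hσ⟩ := exists_pad_symp (F := F) (l := Fin (2 ^ Nat.log 2 n)) (r := Fin (n - 2 ^ Nat.log 2 n))
    obtain ⟨τ, hτ⟩ := exists_reindex_symp (F := F)
      (finSumFinEquiv.trans (finCongr (show 2 ^ Nat.log 2 n + (n - 2 ^ Nat.log 2 n) = n by omega)))
    let f : D →* ↥(Matrix.symplecticGroup (Fin n) F) := (τ.comp σ).comp ρ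
    have hf : Function.Injective f := (hτ.comp hσ).comp hρ
    obtain ⟨T, hT⟩ := (hD.of_surjective f.rangeRestrict f.rangeRestrict_surjective).exists_le_sylow
    refine derived_ne_bot_map (T.equiv R).toMonoidHom (T.equiv R).injective ?_
    exact derived_ne_bot_map ((Subgroup.inclusion hT).comp f.rangeRestrict)
      ((Subgroup.inclusion_injective hT).comp (MonoidHom.rangeRestrict_injective_iff.2 hf)) hd

end Cfsg.Agent.DerivedLen.Symp
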